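import Mathlib
import Cfsg.Agent.S1949

/-!
A normal `3`-subgroup of rank at most two is centralized by `7`-elements.
-/

set_option autoImplicit false

namespace Cfsg.Agent.G2A

open Subgroup

theorem cb_nine {D : Type*} [Group D] [Finite D] {a b : D} (ha : a ^ 3 = 1) (hb : b ^ 3 = 1) (h : Commute a b) :
    Nat.card (closure ({a, b} : Set D)) ≤ 9 := by
  have ma : a ∈ closure ({a, b} : Set D) := subset_closure (by simp)
  have mb : b ∈ closure ({a, b} : Set D) := subset_closure (by simp)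
  have key : ∀ c ∈ closure ({a, b} : Set D), ∃ i j : ℕ, c = a ^ i * b ^ j := by
    intro c hc
    induction hc using closure_induction_left with
    | one => exact ⟨0, 0, by simp⟩
    | mul_left x hx y _ ih =>
      obtain ⟨i, j, rfl⟩ := ih
      rcases hx with rfl | rfl
      · exact ⟨i + 1, j, by rw [pow_succ', mul_assoc]⟩
      · exact ⟨i, j + 1, by rw [← mul_assoc, ← (h.pow_left i).eq, pow_succ', mul_assoc]⟩
    | inv_mul_cancel x hx y _ ih =>
      obtain ⟨i, j, rfl⟩ := ih
      rcases hx with rfl | rfl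
      · refine ⟨2 + i, j, ?_⟩
        have : x⁻¹ = x ^ 2 := by rw [inv_eq_iff_mul_eq_one, ← pow_succ', ha]
        rw [this, pow_add, mul_assoc]
      · refine ⟨i, 2 + j, ?_⟩
        have : x⁻¹ = x ^ 2 := by rw [inv_eq_iff_mul_eq_one, ← pow_succ', hb]
        rw [this, ← mul_assoc, ← (h.pow_pow i 2).eq, pow_add, mul_assoc]
  let f : Fin 3 × Fin 3 → closure ({a, b} : Set D) := fun p =>
    ⟨a ^ (p.1 : ℕ) * b ^ (p.2 : ℕ), mul_mem (pow_mem ma _) (pow_mem mb _)⟩
  have hf : Function.Surjective f := by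
    rintro ⟨c, hc⟩
    obtain ⟨i, j, rfl⟩ := key c hc
    refine ⟨(⟨i % 3, Nat.mod_lt _ (by norm_num)⟩, ⟨j % 3, Nat.mod_lt _ (by norm_num)⟩), Subtype.ext ?_⟩
    show a ^ (i % 3) * b ^ (j % 3) = a ^ i * b ^ j
    rw [← pow_eq_pow_mod i ha, ← pow_eq_pow_mod j hb]
  simpa using Nat.card_le_card_of_surjective f hf

theorem cb_three {D : Type*} [Group D] [Finite D] {a : D} (ha : a ^ 3 = 1) : Nat.card (zpowers a) ≤ 3 := by
  rw [Nat.card_zpowers]
  exact Nat.le_of_dvd (by norm_num) (orderOf_dvd_of_pow_eq_one ha)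

theorem cb_bound {D : Type*} [Group D] [Finite D] (h3 : ∀ d : D, d ^ 3 = 1)
    (hc : ∀ x y w : D, Commute (x * y * x⁻¹ * y⁻¹) w)
    (hno : ∀ a b c : D, Commute a b → Commute a c → Commute b c → a ≠ 1 → b ∉ zpowers a →
      c ∈ closure ({a, b} : Set D)) : Nat.card D ≤ 27 := by
  by_cases hab : ∀ x y : D, Commute x y
  · by_cases h1 : ∀ a : D, a = 1
    · have : Subsingleton D := ⟨fun a b => by rw [h1 a, h1 b]⟩
      rw [Nat.card_of_subsingleton (1 : D)]; norm_num
    push Not at h1
    obtain ⟨a, ha⟩ := h1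
    by_cases h2 : ∀ b : D, b ∈ zpowers a
    · have e : zpowers a = ⊤ := eq_top_iff.2 fun b _ => h2 b
      have := cb_three (h3 a)
      rw [e, card_top] at this
      omega
    push Not at h2
    obtain ⟨b, hb⟩ := h2
    have e : closure ({a, b} : Set D) = ⊤ := eq_top_iff.2 fun c _ => hno a b c (hab _ _) (hab _ _) (hab _ _) ha hb
    have := cb_nine (h3 a) (h3 b) (hab a b)
    rw [e, card_top] at this
    omega
  push Not at hab
  obtain ⟨x, y, hxy⟩ := hab
  have hz : x * y * x⁻¹ * y⁻¹ ≠ 1 := fun h => hxy (commutatorElement_eq_one_iff_commute.1 h)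
  set z := x * y * x⁻¹ * y⁻¹ with hzd
  have zc : z ∈ center D := mem_center_iff.2 fun w => (hc x y w).eq.symm
  have xc : x ∉ center D := fun h => hxy (mem_center_iff.1 h y).symm
  have xz : x ∉ zpowers z := fun h => xc ((zpowers_le.2 zc) h)
  have cz : ∀ c ∈ center D, c ∈ zpowers z := by
    intro c hcc
    by_contra hn
    have := hno z c x (hc x y c) (hc x y x) (mem_center_iff.1 hcc x).symm hz hn
    exact xc ((closure_le (center D)).2 (by rintro _ (rfl | rfl) <;> assumption) this)
  let φ : D →* D := MonoidHom.mk' (fun w => x * w * x⁻¹ * w⁻¹) fun v w => by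
    have e : x * (v * w) * x⁻¹ * (v * w)⁻¹ = x * v * x⁻¹ * ((x * w * x⁻¹ * w⁻¹) * v⁻¹) := by group
    rw [e, (hc x w v⁻¹).eq]; group
  have hr : φ.range ≤ zpowers z := by
    rintro _ ⟨w, rfl⟩
    exact cz _ (mem_center_iff.2 fun v => (hc x w v).eq.symm)
  have hk : φ.ker ≤ closure ({z, x} : Set D) := fun w hw =>
    hno z x w (hc x y x) (hc x y w) (commutatorElement_eq_one_iff_commute.1 hw) hz xz
  have h1 := (card_le_of_le hr).trans (cb_three (h3 z))
  have h2 := (card_le_of_le hk).trans (cb_nine (h3 z) (h3 x) (hc x y x))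
  have h4 : Nat.card φ.ker * Nat.card φ.range = Nat.card D := by
    rw [← index_ker, card_mul_index]
  rw [← h4]
  calc _ ≤ 9 * 3 := Nat.mul_le_mul h2 h1
    _ = 27 := by norm_num

theorem cb_fix {D : Type*} [Group D] [Finite D] (hD : IsPGroup 3 D) (hle : Nat.card D ≤ 27) (f : D →* D) (k : ℕ)
    (hf : ∀ d, f^[7 ^ k] d = d) (d : D) : f d = d := by
  classical
  have := Fintype.ofFinite D
  have : Fact (Nat.Prime 7) := ⟨by norm_num⟩
  have : Fact (Nat.Prime 3) := ⟨by norm_num⟩
  let f' : Function.End D := ⇑f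
  have hpow : ∀ (n : ℕ) (d : D), (f' ^ n) d = f^[n] d := by
    intro n
    induction n with
    | zero => intro d; rfl
    | succ n ih => intro d; rw [pow_succ, Function.iterate_succ_apply, ← ih]; rfl
  have h := Equiv.Perm.card_fixedPoints_modEq (f := f') (p := 7) (n := k) (by
    funext d
    rw [hpow]
    exact hf d)
  let F : Subgroup D := f.eqLocus (MonoidHom.id D)
  have e : Fintype.card (Function.fixedPoints f') = Nat.card F := by
    rw [← Nat.card_eq_fintype_card]
    rfl
  rw [e, ← Nat.card_eq_fintype_card] at h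
  obtain ⟨n, hn⟩ := hD.exists_card_eq
  obtain ⟨m, hm⟩ := (hD.to_subgroup F).exists_card_eq
  have hmn : Nat.card F ≤ Nat.card D := card_le_card_group F
  have hF : Nat.card F = Nat.card D := by
    rw [hn, hm] at h hmn
    rw [hn] at hle
    rw [hn, hm]
    have n3 : n ≤ 3 := (Nat.pow_le_pow_iff_right (by norm_num : 1 < 3)).1 hle
    have m3 : m ≤ n := (Nat.pow_le_pow_iff_right (by norm_num : 1 < 3)).1 hmn
    interval_cases n <;> interval_cases m <;> simp_all [Nat.ModEq]
  have : d ∈ F := by rw [eq_top_of_card_eq F hF]; trivial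
  exact this

theorem cen3b {H : Type*} [Group H] [Finite H] (_hp : Group.IsPerfect H)
    (hno : ∀ a b c : H, a ^ 3 = 1 → b ^ 3 = 1 → c ^ 3 = 1 → Commute a b → Commute a c → Commute b c → a ≠ 1 →
      b ∉ zpowers a → c ∈ closure ({a, b} : Set H))
    (R : Subgroup H) [R.Normal] (hR : IsPGroup 3 R) (g : H) (hg : IsPGroup 7 (zpowers g))
    (hgen : ∀ N : Subgroup H, N.Normal → g ∈ N → N = ⊤) : R ≤ center H := by
  have : Fact (Nat.Prime 3) := ⟨by norm_num⟩
  obtain ⟨D, h1, -, h3, h4, h5, -⟩ := Cfsg.Agent.S1949.result hR ⊤ le_top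
  obtain ⟨k, hk⟩ := hg ⟨g, mem_zpowers g⟩
  have hk' : g ^ 7 ^ k = 1 := congrArg Subtype.val hk
  let α : MulAut R := MulAut.conjNormal g
  have hα : α ^ 7 ^ k = 1 := by rw [← map_pow, hk', map_one]
  have hinv : ∀ d ∈ D, α d ∈ D := fun d hd => h1 α trivial ▸ mem_map_of_mem α.toMonoidHom hd
  let ι : D →* H := R.subtype.comp D.subtype
  have hι : Function.Injective ι := R.subtype_injective.comp D.subtype_injective
  have e3 : ∀ d : D, d ^ 3 = 1 := fun d => Subtype.ext ((h3 d.1 d.2).resolve_right (by simp))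
  have hle : Nat.card D ≤ 27 := by
    refine cb_bound e3 (fun x y w => ?_) fun a b c ab ac bc ha hb => ?_
    · have := (h4 (commutator_mem_commutator x.2 (mem_top y.1))).2 w.1 w.2
      exact Subtype.ext this.symm
    · have := hno (ι a) (ι b) (ι c) (by rw [← map_pow, e3, map_one]) (by rw [← map_pow, e3, map_one])
        (by rw [← map_pow, e3, map_one]) (ab.map ι) (ac.map ι) (bc.map ι)
        (fun h => ha (hι (by rw [h, map_one]))) (by
          rintro ⟨n, hn⟩
          exact hb ⟨n, hι (by rw [map_zpow]; exact hn)⟩)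
      rw [← Set.image_pair, ← MonoidHom.map_closure] at this
      obtain ⟨c', hc', e⟩ := this
      exact hι e ▸ hc'
  let f : D →* D := (α.toMonoidHom.comp D.subtype).codRestrict D fun d => hinv d.1 d.2
  have hit : ∀ (n : ℕ) (d : D), (f^[n] d).1 = (α ^ n) d.1 := by
    intro n
    induction n with
    | zero => intro d; rfl
    | succ n ih => intro d; rw [Function.iterate_succ_apply, ih, pow_succ]; rfl
  have hfix := cb_fix (hR.to_subgroup D) hle f k fun d => Subtype.ext (by rw [hit, hα]; rfl)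
  have h7 : (orderOf α).Coprime 3 :=
    Nat.Coprime.coprime_dvd_left (orderOf_dvd_of_pow_eq_one hα) (Nat.Coprime.pow_left k (by norm_num))
  have hone := h5 α trivial h7 fun d hd => congrArg Subtype.val (hfix ⟨d, hd⟩)
  have hC := hgen (centralizer (R : Set H)) inferInstance fun r hr => by
    have : (α ⟨r, hr⟩).1 = r := by rw [hone]; rfl
    have e : g * r * g⁻¹ = r := this
    exact (mul_inv_eq_iff_eq_mul.1 e).symm
  intro r hr
  rw [mem_center_iff]
  intro x
  exact ((hC ▸ mem_top x : x ∈ centralizer (R : Set H)) r hr).symm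

end Cfsg.Agent.G2A
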