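import Mathlib
import Cfsg.Agent.S0892
import Cfsg.Agent.G2A.Cb
import Cfsg.Agent.AltS.F35

/-!
Lifting a pair of disjoint `3`-cycles through a group of `3`-rank at most two.
-/

set_option autoImplicit false

namespace Cfsg.Agent.G2A

open Subgroup Equiv

theorem tb_sq {r : ℕ} (hr : 8 ≤ r) {H : Type*} [Group H] [Finite H] (π : H →* alternatingGroup (Fin r))
    (hπ : Function.Surjective π) (hc : π.ker ≤ Subgroup.center H) (hp : Group.IsPerfect H)
    (z : H) (hz : π z = 1) : z ^ 2 = 1 := by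
  have h2 : Nat.card π.ker ≤ 2 :=
    Cfsg.Agent.S0892.result r (by omega) (by omega) (by omega) π.ker hc
      (by rw [hp.commutator_eq_top]; exact le_top) (QuotientGroup.quotientKerEquivOfSurjective π hπ)
  have h1 : 0 < Nat.card π.ker := Nat.card_pos
  have h3 : (⟨z, hz⟩ : π.ker) ^ Nat.card π.ker = 1 := pow_card_eq_one'
  have h4 : z ^ Nat.card π.ker = 1 := congrArg Subtype.val h3
  have h5 : Nat.card π.ker ∣ 2 := by
    rcases (by omega : Nat.card π.ker = 1 ∨ Nat.card π.ker = 2) with h | h <;> rw [h] <;> norm_num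
  obtain ⟨m, hm⟩ := h5
  rw [hm, pow_mul, h4, one_pow]

theorem tb_ex {r : ℕ} (hr : 8 ≤ r) : ∃ a b w c : alternatingGroup (Fin r), a ≠ 1 ∧ a ^ 3 = 1 ∧ b ^ 3 = 1 ∧
    a * b = b * a ∧ b ≠ 1 ∧ b ≠ a ∧ b ≠ a ^ 2 ∧ w * a * w⁻¹ = b ∧ w * b * w⁻¹ = a⁻¹ ∧ c ≠ 1 ∧ c ^ 7 = 1 := by
  obtain ⟨ι, hι⟩ := Cfsg.Agent.AltS.f35_emb (n := 7) (r := r) (by omega)
  let a : alternatingGroup (Fin 7) := ⟨swap 0 1 * swap 1 2, by rw [Perm.mem_alternatingGroup]; decide +kernel⟩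
  let b : alternatingGroup (Fin 7) := ⟨swap 3 4 * swap 4 5, by rw [Perm.mem_alternatingGroup]; decide +kernel⟩
  let w : alternatingGroup (Fin 7) :=
    ⟨swap 0 3 * swap 1 4 * swap 4 2 * swap 2 5, by rw [Perm.mem_alternatingGroup]; decide +kernel⟩
  let c : alternatingGroup (Fin 7) := ⟨swap 0 1 * swap 1 2 * swap 2 3 * swap 3 4 * swap 4 5 * swap 5 6,
    by rw [Perm.mem_alternatingGroup]; decide +kernel⟩
  refine ⟨ι a, ι b, ι w, ι c, ?_⟩
  simp only [← map_mul, ← map_pow, ← map_inv, ← map_one ι, ne_eq, hι.eq_iff]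
  decide +kernel

theorem tb_ker {L : Type*} [Group L] [Finite L] {r : ℕ} (hr : 8 ≤ r) (π : L →* alternatingGroup (Fin r))
    (hπ : Function.Surjective π) (hmin : ∀ M : Subgroup L, M.map π = ⊤ → M = ⊤)
    (hno : ∀ a b c : L, a ^ 3 = 1 → b ^ 3 = 1 → c ^ 3 = 1 → Commute a b → Commute a c → Commute b c → a ≠ 1 →
      b ∉ zpowers a → c ∈ closure ({a, b} : Set L)) (x : L) (hx : π x = 1) (k : ℕ) (hk : x ^ 3 ^ k = 1) :
    x = 1 := by
  have : Fact (Nat.Prime 3) := ⟨by norm_num⟩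
  have h5 : 5 ≤ Nat.card (Fin r) := by simp; omega
  have hs := alternatingGroup.isSimpleGroup h5
  have hp : Group.IsPerfect L := ⟨hmin _ (by
    rw [map_commutator_eq, MonoidHom.range_eq_top.2 hπ]
    exact commutator_alternatingGroup_eq_top h5)⟩
  obtain ⟨-, -, -, c, -, -, -, -, -, -, -, -, -, c1, c7⟩ := tb_ex hr
  obtain ⟨g₀, rfl⟩ := hπ c
  obtain ⟨j, m, hm, ho⟩ := Nat.exists_eq_pow_mul_and_not_dvd (orderOf_pos g₀).ne' 7 (by norm_num)
  have hg7 : IsPGroup 7 (zpowers (g₀ ^ m)) := by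
    rintro ⟨_, n, rfl⟩
    refine ⟨j, Subtype.ext ?_⟩
    show ((g₀ ^ m) ^ n) ^ 7 ^ j = 1
    rw [← zpow_natCast, ← zpow_mul, mul_comm, zpow_mul, zpow_natCast, ← pow_mul, mul_comm, ← ho,
      pow_orderOf_eq_one, one_zpow]
  have hg1 : π (g₀ ^ m) ≠ 1 := by
    have : Fact (Nat.Prime 7) := ⟨by norm_num⟩
    rw [map_pow, ne_eq, ← orderOf_dvd_iff_pow_eq_one, orderOf_eq_prime c7 c1]
    exact hm
  have hgen : ∀ N : Subgroup L, N.Normal → g₀ ^ m ∈ N → N = ⊤ := fun N hN hg => hmin N <| by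
    rcases (hN.map π hπ).eq_bot_or_eq_top with h | h
    · exact absurd (h ▸ mem_map_of_mem π hg : π (g₀ ^ m) ∈ (⊥ : Subgroup _)) hg1
    · exact h
  obtain ⟨P⟩ : Nonempty (Sylow 3 π.ker) := inferInstance
  have hRn : ((P : Subgroup π.ker).map π.ker.subtype).Normal := normalizer_eq_top_iff.1 <| hmin _ <| by
    have := congrArg (Subgroup.map π) P.normalizer_sup_eq_top
    rwa [Subgroup.map_sup, (Subgroup.map_eq_bot_iff π.ker).2 le_rfl, sup_bot_eq, ← MonoidHom.range_eq_map,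
      MonoidHom.range_eq_top.2 hπ] at this
  have hRc := cen3b hp hno _ (P.2.map π.ker.subtype) _ hg7 hgen
  have hPc : normalizer ((P : Subgroup π.ker) : Set π.ker) ≤ centralizer ((P : Subgroup π.ker) : Set π.ker) :=
    fun y _ z hz => Subtype.ext (mem_center_iff.1 (hRc (mem_map_of_mem _ hz)) y.1).symm
  let τ := MonoidHom.transferSylow P hPc
  have hmem : ∀ y : π.ker, y ∈ τ.ker ↔ ¬ 3 ∣ orderOf y := fun y =>
    ⟨fun h h3 => MonoidHom.not_dvd_card_ker_transferSylow P hPc (h3.trans (τ.ker.orderOf_dvd_natCard h)), fun h => by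
      obtain ⟨n, hn⟩ := P.2 (τ y)
      exact orderOf_eq_one_iff.1 (Nat.eq_one_of_dvd_coprimes
        (((Nat.Prime.coprime_iff_not_dvd Nat.prime_three).2 h).pow_left n)
        (orderOf_dvd_of_pow_eq_one hn) (orderOf_map_dvd τ y))⟩
  let N : Subgroup L := τ.ker.map π.ker.subtype
  have hNn : N.Normal := ⟨by
    rintro _ ⟨y, hy, rfl⟩ g
    refine ⟨MulAut.conjNormal g y, (hmem _).2 ?_, rfl⟩
    rw [MulEquiv.orderOf_eq]
    exact (hmem _).1 hy⟩
  have hNK : N ≤ π.ker := map_subtype_le _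
  let π' : L ⧸ N →* alternatingGroup (Fin r) := QuotientGroup.lift N π hNK
  have hπ' : Function.Surjective π' := fun a => by
    obtain ⟨g, rfl⟩ := hπ a
    exact ⟨g, rfl⟩
  have hc' : π'.ker ≤ center (L ⧸ N) := by
    intro z hz
    obtain ⟨y, rfl⟩ := QuotientGroup.mk_surjective z
    obtain ⟨⟨u, v⟩, e⟩ := (MonoidHom.ker_transferSylow_isComplement' P hPc).2 ⟨y, hz⟩
    have e' : y = u.1.1 * v.1.1 := (congrArg Subtype.val e).symm
    rw [e', QuotientGroup.mk_mul, (QuotientGroup.eq_one_iff u.1.1).2 (mem_map_of_mem _ u.2), one_mul, mem_center_iff]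
    intro t
    obtain ⟨s, rfl⟩ := QuotientGroup.mk_surjective t
    rw [← QuotientGroup.mk_mul, ← QuotientGroup.mk_mul]
    exact congrArg _ (mem_center_iff.1 (hRc (mem_map_of_mem _ v.2)) s)
  have h2 := tb_sq hr π' hπ' hc' inferInstance (x : L ⧸ N) hx
  have h3 : (x : L ⧸ N) ^ 3 ^ k = 1 := by rw [← QuotientGroup.mk_pow, hk]; rfl
  have h1 : (x : L ⧸ N) = 1 := orderOf_eq_one_iff.1 (Nat.eq_one_of_dvd_coprimes
    (Nat.Coprime.pow_right k (by norm_num : Nat.Coprime 2 3)) (orderOf_dvd_of_pow_eq_one h2)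
    (orderOf_dvd_of_pow_eq_one h3))
  obtain ⟨y, hy, rfl⟩ := (QuotientGroup.eq_one_iff x).1 h1
  have hy3 : y ^ 3 ^ k = 1 := Subtype.ext hk
  have : y = 1 := orderOf_eq_one_iff.1 (Nat.eq_one_of_dvd_coprimes
    (((Nat.Prime.coprime_iff_not_dvd Nat.prime_three).2 ((hmem y).1 hy)).pow_left k)
    (orderOf_dvd_of_pow_eq_one hy3) dvd_rfl)
  rw [this, map_one]

theorem tb_lift {L : Type*} [Group L] [Finite L] {r : ℕ} (hr : 8 ≤ r) (π : L →* alternatingGroup (Fin r))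
    (hπ : Function.Surjective π) (hk : ∀ x : L, π x = 1 → ∀ k : ℕ, x ^ 3 ^ k = 1 → x = 1) :
    ∃ y₁ y₂ w : L, orderOf y₁ = 3 ∧ Commute y₁ y₂ ∧ y₂ ∉ zpowers y₁ ∧ w * y₁ * w⁻¹ = y₂ ∧
      w * y₂ * w⁻¹ = y₁⁻¹ := by
  have : Fact (Nat.Prime 3) := ⟨by norm_num⟩
  obtain ⟨a, b, w, -, a1, a3, b3, ab, b1, ba, ba2, wa, wb, -, -⟩ := tb_ex hr
  let A := zpowers a ⊔ zpowers b
  have pz : ∀ c : alternatingGroup (Fin r), c ^ 3 = 1 → IsPGroup 3 (zpowers c) := by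
    rintro c hc ⟨_, n, rfl⟩
    refine ⟨1, Subtype.ext ?_⟩
    show (c ^ n) ^ 3 ^ 1 = 1
    rw [pow_one, ← zpow_natCast, ← zpow_mul, mul_comm, zpow_mul, zpow_natCast, hc, one_zpow]
  have hA : IsPGroup 3 A := (pz a a3).to_sup_of_normal_left' (pz b b3)
    (zpowers_le.2 (Cfsg.Agent.AltS.f35_norm (k := 1) (by rw [← ab]; simp)))
  have aA : a ∈ A := mem_sup_left (mem_zpowers a)
  have bA : b ∈ A := mem_sup_right (mem_zpowers b)
  have hw : w ∈ normalizer (A : Set (alternatingGroup (Fin r))) := by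
    have : A ≤ A.comap (MulAut.conj w).toMonoidHom :=
      sup_le (zpowers_le.2 (show w * a * w⁻¹ ∈ A from wa ▸ bA)) (zpowers_le.2 (show w * b * w⁻¹ ∈ A from wb ▸ A.inv_mem aA))
    exact mem_normalizer_fintype fun n hn => this hn
  let Q := normalizer (A : Set (alternatingGroup (Fin r)))
  obtain ⟨P, hP, h1, h2⟩ := Cfsg.Agent.AltS.f35_fr (π.subgroupComap Q) (π.subgroupComap_surjective_of_surjective Q hπ)
    (p := 3) (A.subgroupOf Q) hA.comap_subtype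
  obtain ⟨y₁, m1, e1⟩ : (⟨a, le_normalizer aA⟩ : Q) ∈ P.map (π.subgroupComap Q) := h1 ▸ aA
  obtain ⟨y₂, m2, e2⟩ : (⟨b, le_normalizer bA⟩ : Q) ∈ P.map (π.subgroupComap Q) := h1 ▸ bA
  obtain ⟨v, mv, ev⟩ : (⟨w, hw⟩ : Q) ∈ (normalizer (P : Set (Q.comap π))).map (π.subgroupComap Q) := h2 ▸ mem_top _
  have e1' : π y₁.1 = a := congrArg Subtype.val e1
  have e2' : π y₂.1 = b := congrArg Subtype.val e2
  have ev' : π v.1 = w := congrArg Subtype.val ev
  have inj : ∀ s ∈ P, ∀ t ∈ P, π s.1 = π t.1 → s.1 = t.1 := fun s hs t ht h => by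
    obtain ⟨k, hk'⟩ := hP ⟨s * t⁻¹, P.mul_mem hs (P.inv_mem ht)⟩
    exact mul_inv_eq_one.1 (hk (s.1 * t.1⁻¹) (by simp [h]) k (congrArg (fun z => z.1.1) hk'))
  refine ⟨y₁.1, y₂.1, v.1, orderOf_eq_prime (inj _ (P.pow_mem m1 3) _ P.one_mem (by simp [e1', a3])) ?_,
    inj _ (P.mul_mem m1 m2) _ (P.mul_mem m2 m1) (by simp [e1', e2', ab]), ?_,
    inj _ ((mem_normalizer_iff.1 mv _).1 m1) _ m2 (by simp [e1', e2', ev', wa]),
    inj _ ((mem_normalizer_iff.1 mv _).1 m2) _ (P.inv_mem m1) (by simp [e1', e2', ev', wb])⟩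
  · intro h
    exact a1 (by rw [← e1', h, map_one])
  · intro h
    have hb : b ∈ zpowers a := by
      rw [← e1', ← e2', ← MonoidHom.map_zpowers]
      exact mem_map_of_mem π h
    obtain ⟨n, hn⟩ := (mem_powers_iff_mem_zpowers.2 hb)
    have hn' : a ^ (n % 3) = b := by rw [← pow_eq_pow_mod n a3]; exact hn
    have : n % 3 < 3 := Nat.mod_lt _ (by norm_num)
    interval_cases n % 3
    · exact b1 (by rw [← hn', pow_zero])
    · exact ba (by rw [← hn', pow_one])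
    · exact ba2 hn'.symm

theorem threeb {H : Type*} [Group H] [Finite H] {r : ℕ} (hr : 8 ≤ r) (π : H →* alternatingGroup (Fin r))
    (hπ : Function.Surjective π)
    (hno : ∀ a b c : H, a ^ 3 = 1 → b ^ 3 = 1 → c ^ 3 = 1 → Commute a b → Commute a c → Commute b c → a ≠ 1 →
      b ∉ zpowers a → c ∈ closure ({a, b} : Set H)) :
    ∃ y₁ y₂ w : H, orderOf y₁ = 3 ∧ Commute y₁ y₂ ∧ y₂ ∉ zpowers y₁ ∧ w * y₁ * w⁻¹ = y₂ ∧
      w * y₂ * w⁻¹ = y₁⁻¹ := by
  obtain ⟨L, hL, hm⟩ := WellFounded.has_min (wellFounded_lt (α := Subgroup H)) {M | M.map π = ⊤}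
    ⟨⊤, by rw [Set.mem_setOf_eq, ← MonoidHom.range_eq_map, MonoidHom.range_eq_top.2 hπ]⟩
  have hι := L.subtype_injective
  have hs : Function.Surjective (π.comp L.subtype) := fun a => by
    obtain ⟨g, hg, rfl⟩ : a ∈ L.map π := hL ▸ mem_top a
    exact ⟨⟨g, hg⟩, rfl⟩
  obtain ⟨y₁, y₂, w, h1, h2, h3, h4, h5⟩ := tb_lift hr _ hs (tb_ker hr _ hs (fun M hM => by
    by_contra hne
    refine hm (M.map L.subtype) (by rw [Set.mem_setOf_eq, map_map]; exact hM) ?_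
    refine lt_of_le_of_ne (map_subtype_le M) fun e => hne (map_injective hι ?_)
    rw [e, ← MonoidHom.range_eq_map, range_subtype]) fun a b c a3 b3 c3 ab ac bc ha hb => by
    have := hno a.1 b.1 c.1 (congrArg Subtype.val a3) (congrArg Subtype.val b3) (congrArg Subtype.val c3)
      (ab.map L.subtype) (ac.map L.subtype) (bc.map L.subtype) (fun h => ha (Subtype.ext h)) (by
        rintro ⟨n, hn⟩
        exact hb ⟨n, Subtype.ext hn⟩)
    have e : ({a.1, b.1} : Set H) = L.subtype '' {a, b} := by rw [Set.image_pair]; rfl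
    rw [e, ← MonoidHom.map_closure] at this
    obtain ⟨c', hc', e⟩ := this
    exact hι e ▸ hc')
  refine ⟨y₁.1, y₂.1, w.1, by rw [← h1]; exact orderOf_coe y₁, h2.map L.subtype, ?_,
    congrArg Subtype.val h4, congrArg Subtype.val h5⟩
  rintro ⟨n, hn⟩
  exact h3 ⟨n, Subtype.ext hn⟩

end Cfsg.Agent.G2A
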